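import Cfsg.Agent.Lib.Helper30.BGUniq
import Cfsg.Agent.Lib.Helper30.Transitivity2
import Cfsg.Agent.Lib.Helper30.PuigTransfer
import Cfsg.Agent.Lib.Helper30.CNLocal2
import Cfsg.Agent.Lib.Helper52.Subn
import Cfsg.Agent.S1443
import Cfsg.Agent.S1396
import Cfsg.Agent.S1457

/-!
B-G Theorem 8.1: uniqueness subgroups inside the Fitting subgroup of a maximal subgroup.
-/

set_option autoImplicit false
set_option linter.style.haveILetI false

namespace Cfsg.Agent.Lib.Helper30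

open Subgroup Cfsg.Agent.Lib.Helper28
open scoped Pointwise commutatorElement

universe u

variable {G : Type u} [Group G]

theorem dvd_card_of_isPGroup_ne_bot [Finite G] {q : ℕ} [Fact q.Prime] {Q : Subgroup G} (hQ : IsPGroup q Q)
    (h1 : Q ≠ ⊥) : q ∣ Nat.card Q := by
  obtain ⟨n, hn⟩ := IsPGroup.iff_card.mp hQ
  rcases Nat.eq_zero_or_pos n with rfl | hpos
  · rw [pow_zero] at hn
    exact absurd (Subgroup.card_eq_one.mp hn) h1
  · rw [hn]
    exact dvd_pow_self q hpos.ne'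

/-- If `A ≤ F(M)` satisfies the transitivity hypothesis, has a centre of rank `≥ 3`, `O_{π'}(C(A)) = 1`
and `π(A) = π(F(M))`, then no nontrivial `q`-subgroup (`q ∉ π`) is normalized by `A`. -/
theorem inv_eq_bot_of_transK [Finite G] (hG : Cfsg.IsMinSimpleOddOrder G) {M A : Subgroup G}
    (hM : IsCoatom M) (hAF : A ≤ fitIn M) (hA : Cfsg.TransitivityHypothesis A)
    (hZ : ¬ Cfsg.RankLE 2 ↥(A ⊓ centralizer (A : Set G))) (hK : transK A = ⊥)
    (hπ : ∀ r : ℕ, r.Prime → r ∣ Nat.card (fitIn M) → r ∣ Nat.card A)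
    {q : ℕ} [hq : Fact q.Prime] (hqA : ¬ q ∣ Nat.card A) {S : Subgroup G} (hS : IsPGroup q S)
    (hAS : A ≤ normalizer (S : Set G)) : S = ⊥ := by
  have htr : ∀ Q₁ ∈ Cfsg.maxInvSubgroups ⊤ A {q}, ∀ Q₂ ∈ Cfsg.maxInvSubgroups ⊤ A {q},
      ∃ k ∈ transK A, Q₂ = cj k Q₁ := fun Q₁ h₁ Q₂ h₂ => kconj_of_rank_three hG hA hZ hqA h₁ h₂
  have huniq : ∀ Q₁ ∈ Cfsg.maxInvSubgroups ⊤ A {q}, ∀ Q₂ ∈ Cfsg.maxInvSubgroups ⊤ A {q},
      Q₂ = Q₁ := by
    intro Q₁ h₁ Q₂ h₂
    obtain ⟨k, hk, rfl⟩ := htr Q₁ h₁ Q₂ h₂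
    rw [hK, mem_bot] at hk
    rw [hk, cj_one]
  have hsn : (A.subgroupOf (fitIn M)).IsSubnormal := by
    haveI := fitIn_isNilpotent M
    exact Cfsg.Agent.Lib.Helper52.isSubnormal_of_isNilpotent _
  obtain ⟨-, -, hsub, -⟩ := trans_superset hG hA hqA hπ hAF hsn htr
  obtain ⟨T, hT, hST⟩ := exists_maxInv_ge hS hAS
  obtain ⟨Q, hQ, -⟩ := exists_maxInv_ge (A := fitIn M) (S := ⊥) (q := q) IsPGroup.of_bot
    (by intro x _; rw [mem_normalizer_iff]; intro h; simp [mem_bot])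
  have hQA := hsub hQ
  have hTQ : T = Q := huniq Q hQA T hT
  have hMQ : M ≤ normalizer (Q : Set G) := by
    intro m hm
    have h1 := cj_mem_maxInv_of_normalizer (le_normalizer_fitIn M hm) hQ
    exact mem_normalizer_of_cj_eq (huniq Q hQA _ (hsub h1))
  by_contra hS1
  have hQ1 : Q ≠ ⊥ := by
    rintro rfl
    rw [hTQ, le_bot_iff] at hST
    exact hS1 hST
  have hQp : IsPGroup q Q := (mem_invSubgroups_top_iff.mp hQ.1).1
  have hcop : (Nat.card A).Coprime q := ((Nat.Prime.coprime_iff_not_dvd hq.out).mpr hqA).symm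
  have hQtop : Q ≠ ⊤ := by
    rintro rfl
    exact hA.1 (eq_bot_of_isPGroup_of_coprime (hQp.to_le le_top) hcop)
  have hN : normalizer (Q : Set G) = M := by
    rcases eq_or_lt_of_le hMQ with h | h
    · exact h.symm
    · exact absurd (hM.2 _ h) (normalizer_ne_top hG hQ1 hQtop)
  have hQM : Q ≤ M := hN ▸ le_normalizer
  have hQF : Q ≤ fitIn M := (le_opIn hQM hMQ hQp).trans (opIn_le_fitIn q M)
  exact hqA (hπ q hq.out ((dvd_card_of_isPGroup_ne_bot hQp hQ1).trans (card_dvd_of_le hQF)))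


theorem isPGroup_le_opIn [Finite G] {p : ℕ} [hp : Fact p.Prime] {M E : Subgroup G} (hE : E ≤ fitIn M)
    (hEp : IsPGroup p E) : E ≤ opIn p M := by
  intro x hx
  have hx1 := fitIn_le_sup p M (hE hx)
  have hn : opPrimeIn p M ⊓ fitIn M ≤ normalizer (opIn p M : Set G) :=
    inf_le_left.trans ((opPrimeIn_le p M).trans (le_normalizer_opIn p M))
  obtain ⟨a, ha, b, hb, rfl⟩ := (mem_sup_of_le_normalizer hn).mp hx1
  have hdisj : opIn p M ⊓ (opPrimeIn p M ⊓ fitIn M) = ⊥ := by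
    apply eq_bot_of_isPGroup_of_coprime ((opIn_isPGroup p M).to_le inf_le_left)
    exact Nat.Coprime.coprime_dvd_left (card_dvd_of_le (inf_le_right.trans inf_le_left))
      (opPrimeIn_coprime p M)
  have hn' : opIn p M ≤ normalizer ((opPrimeIn p M ⊓ fitIn M : Subgroup G) : Set G) :=
    (opIn_le p M).trans (le_normalizer_inf (le_normalizer_opPrimeIn p M) (le_normalizer_fitIn M))
  have hcomm := commutator_eq_bot_of_normalize hn' hn hdisj
  have hab : Commute a b := by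
    have h1 := (commutator_eq_bot_iff_le_centralizer.mp hcomm) ha
    exact (mem_centralizer_iff.mp h1 b hb).symm
  obtain ⟨k, hk⟩ := (IsPGroup.iff_orderOf.mp hEp) ⟨a * b, hx⟩
  have hk' : (a * b) ^ (p ^ k) = 1 := by
    have := pow_orderOf_eq_one (⟨a * b, hx⟩ : E)
    rw [hk] at this
    exact congrArg Subtype.val this
  rw [hab.mul_pow] at hk'
  have hbk : b ^ (p ^ k) ∈ opIn p M ⊓ (opPrimeIn p M ⊓ fitIn M) := by
    refine mem_inf.mpr ⟨?_, pow_mem hb _⟩
    rw [eq_inv_of_mul_eq_one_right hk']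
    exact (opIn p M).inv_mem (pow_mem ha _)
  rw [hdisj, mem_bot] at hbk
  have hb1 : b = 1 := by
    have h1 : orderOf b ∣ p ^ k := orderOf_dvd_of_pow_eq_one hbk
    have h2 : orderOf b ∣ Nat.card (opPrimeIn p M) := by
      have := orderOf_dvd_natCard (⟨b, hb.1⟩ : opPrimeIn p M)
      rwa [Subgroup.orderOf_mk] at this
    have h3 : (orderOf b).Coprime (p ^ k) :=
      Nat.Coprime.pow_right k (Nat.Coprime.coprime_dvd_left h2 (opPrimeIn_coprime p M))
    exact orderOf_eq_one_iff.mp (Nat.Coprime.eq_one_of_dvd h3 h1)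
  rw [hb1, mul_one]
  exact ha


theorem ne_two_of_dvd_card (hG : Cfsg.IsMinSimpleOddOrder G) {p : ℕ} (h : p ∣ Nat.card G) : p ≠ 2 := by
  rintro rfl
  exact (Nat.not_even_iff_odd.mpr hG.1) (even_iff_two_dvd.mpr h)

theorem commutator_le_of_le_of_le_normalizer {Y Z O : Subgroup G} (hZ : Z ≤ O)
    (hY : Y ≤ normalizer (O : Set G)) : ⁅Y, Z⁆ ≤ O := by
  rw [commutator_comm]
  exact (commutator_mono hZ le_rfl).trans (commutator_le_of_le_normalizer hY)

theorem le_centralizer_fitIn_of_forall [Finite G] {M K : Subgroup G}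
    (h : ∀ r : ℕ, r.Prime → K ≤ centralizer (opIn r M : Set G)) : K ≤ centralizer (fitIn M : Set G) := by
  rw [le_centralizer_iff, fitIn_eq_iSup_opIn]
  exact iSup_le fun r => le_centralizer_iff.mp (h r r.2)

/-- common set-up for B-G 8.1(a). -/
theorem bg81a_aux [Finite G] (hG : Cfsg.IsMinSimpleOddOrder G) {M A₀ : Subgroup G} (hM : IsCoatom M)
    {p : ℕ} [hp : Fact p.Prime] (hA₀ : A₀ ≤ fitIn M) (hA₀e : Cfsg.IsElementaryAbelian p A₀)
    (hA₀1 : A₀ ≠ ⊥) :
    (∀ r : ℕ, r.Prime → zq r M ≤ fitIn M ⊓ centralizer (A₀ : Set G)) ∧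
    (∀ r : ℕ, r.Prime → r ∣ Nat.card (fitIn M) → r ∣ Nat.card ↥(fitIn M ⊓ centralizer (A₀ : Set G))) ∧
    (∀ K : Subgroup G, K ≤ centralizer ((fitIn M ⊓ centralizer (A₀ : Set G) : Subgroup G) : Set G) →
      PiNat (Cfsg.primesNotDvd (Nat.card ↥(fitIn M ⊓ centralizer (A₀ : Set G)))) (Nat.card K) → K = ⊥) := by
  have hMsol := solvable_of_ne_top hG hM.1
  have hA₀p : IsPGroup p A₀ := isPGroup_of_elementary hA₀e
  have hA₀O : A₀ ≤ opIn p M := isPGroup_le_opIn hA₀ hA₀p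
  have hp2 : p ≠ 2 := ne_two_of_dvd_card hG
    ((dvd_card_of_isPGroup_ne_bot hA₀p hA₀1).trans (card_subgroup_dvd_card _))
  have hA₀A : A₀ ≤ fitIn M ⊓ centralizer (A₀ : Set G) := by
    refine le_inf hA₀ ?_
    have := hA₀e.1
    exact le_centralizer A₀
  have hOr : ∀ r : ℕ, r.Prime → r ≠ p → opIn r M ≤ fitIn M ⊓ centralizer (A₀ : Set G) := by
    intro r hr hrp
    haveI := Fact.mk hr
    refine le_inf (opIn_le_fitIn r M) ?_
    exact ((opIn_le_opPrimeIn hp.out hr hrp M).trans (opPrimeIn_le_centralizer_opIn p M)).trans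
      (centralizer_le hA₀O)
  have hzq : ∀ r : ℕ, r.Prime → zq r M ≤ fitIn M ⊓ centralizer (A₀ : Set G) := by
    intro r hr
    haveI := Fact.mk hr
    refine le_inf ((zq_le_opIn r M).trans (opIn_le_fitIn r M)) ?_
    exact le_centralizer_iff.mp (hA₀.trans (fitIn_le_centralizer_zq hr M))
  have hπ : ∀ r : ℕ, r.Prime → r ∣ Nat.card (fitIn M) →
      r ∣ Nat.card ↥(fitIn M ⊓ centralizer (A₀ : Set G)) := by
    intro r hr hrF
    haveI := Fact.mk hr
    by_cases hrp : r = p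
    · subst hrp
      exact (dvd_card_of_isPGroup_ne_bot hA₀p hA₀1).trans (card_dvd_of_le hA₀A)
    · exact (dvd_card_of_isPGroup_ne_bot (opIn_isPGroup r M) (opIn_ne_bot_of_dvd hrF)).trans
        (card_dvd_of_le (hOr r hr hrp))
  refine ⟨hzq, hπ, ?_⟩
  intro K hKA hKπ
  have hOp1 : opIn p M ≠ ⊥ := fun h => hA₀1 (le_bot_iff.mp (h ▸ hA₀O))
  have hNz : normalizer (zq p M : Set G) = M :=
    normalizer_eq_of_coatom hG hM (zq_ne_bot hOp1) (zq_le p M) (le_normalizer_zq p M)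
  have hKM : K ≤ M := by
    rw [← hNz]
    exact (hKA.trans (centralizer_le (hzq p hp.out))).trans (centralizer_le_normalizer' _)
  have hpA : p ∣ Nat.card ↥(fitIn M ⊓ centralizer (A₀ : Set G)) :=
    (dvd_card_of_isPGroup_ne_bot hA₀p hA₀1).trans (card_dvd_of_le hA₀A)
  have hKcop : (Nat.card K).Coprime p :=
    (Nat.Coprime.coprime_dvd_left hpA (coprime_of_piNat_primesNotDvd hKπ)).symm
  have hKF : K ≤ centralizer (fitIn M : Set G) := by
    apply le_centralizer_fitIn_of_forall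
    intro r hr
    by_cases hrp : r = p
    · subst hrp
      apply Cfsg.Agent.S1443.result r hp2 (opIn r M) A₀ K (opIn_isPGroup r M) hA₀O hA₀e
        (hKM.trans (le_normalizer_opIn r M)) hKcop
      intro x hx _
      refine hKA.trans (centralizer_le ?_)
      rw [Set.singleton_subset_iff]
      exact ⟨opIn_le_fitIn r M hx.1, hx.2⟩
    · exact hKA.trans (centralizer_le (hOr r hr hrp))
  have hKF' : K ≤ fitIn M := (le_inf hKM hKF).trans (inf_centralizer_fitIn_le hMsol)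
  by_contra hK1
  have hcard : Nat.card K ≠ 1 := fun h => hK1 (Subgroup.card_eq_one.mp h)
  obtain ⟨r, hr, hrK⟩ := Nat.exists_prime_and_dvd hcard
  exact (hKπ r hr hrK).2 (hπ r hr (hrK.trans (card_dvd_of_le hKF')))


/-- A subgroup `A` with `Z(O_r(M)) ≤ A ≤ F(M)` for all `r`, `π(A) = π(F(M))` of size `≥ 2`, and no
nontrivial `π'`-subgroup in `C(A)`, satisfies the transitivity hypothesis. -/
theorem transHyp_of_fitting [Finite G] (hG : Cfsg.IsMinSimpleOddOrder G) {M A : Subgroup G}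
    (hM : IsCoatom M) (hAF : A ≤ fitIn M) (hzq : ∀ r : ℕ, r.Prime → zq r M ≤ A)
    (hπ : ∀ r : ℕ, r.Prime → r ∣ Nat.card (fitIn M) → r ∣ Nat.card A)
    (htriv : ∀ K : Subgroup G, K ≤ centralizer (A : Set G) →
      PiNat (Cfsg.primesNotDvd (Nat.card A)) (Nat.card K) → K = ⊥)
    (h2 : ∃ r₁ r₂ : ℕ, r₁.Prime ∧ r₂.Prime ∧ r₁ ≠ r₂ ∧ opIn r₁ M ≠ ⊥ ∧ opIn r₂ M ≠ ⊥) :
    Cfsg.TransitivityHypothesis A := by
  obtain ⟨r₁, r₂, hr₁, hr₂, hr₁₂, hO₁, hO₂⟩ := h2
  have hAM : A ≤ M := hAF.trans (fitIn_le M)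
  have hA1 : A ≠ ⊥ := by
    intro h
    haveI := Fact.mk hr₁
    exact zq_ne_bot hO₁ (le_bot_iff.mp (h ▸ hzq r₁ hr₁))
  have hAtop : A ≠ ⊤ := fun h => hM.1 (top_le_iff.mp (h ▸ hAM))
  refine ⟨hA1, hAtop, fun X hX hAX => le_antisymm (sSup_le ?_) (le_sSup ?_)⟩
  swap
  · exact ⟨piCoreOf_le _ _, piCoreOf_isPi _ _, hAX.trans (le_normalizer_piCoreOf _ _)⟩
  rintro Y ⟨hYX, hYπ, hAY⟩
  have hXsol := solvable_of_ne_top hG hX
  have hNz : ∀ r : ℕ, r.Prime → opIn r M ≠ ⊥ → normalizer (zq r M : Set G) = M := by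
    intro r hr hO
    haveI := Fact.mk hr
    exact normalizer_eq_of_coatom hG hM (zq_ne_bot hO) (zq_le r M) (le_normalizer_zq r M)
  have key3 : ∀ q r : ℕ, q.Prime → r.Prime → r ≠ q → opIn q M ≠ ⊥ → zq r M ≤ opPrimeIn q X := by
    intro q r hq hr hrq hO
    haveI := Fact.mk hq
    have h1 : opPrimeIn q M ⊓ X ≤ opPrimeIn q X := by
      apply le_opPrimeIn_of_normalizer hXsol ((hzq q hq).trans hAX) (zq_isPGroup q M) inf_le_right
        (inf_le_left.trans ((opPrimeIn_le q M).trans (le_normalizer_zq q M)))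
        (Nat.Coprime.coprime_dvd_left (card_dvd_of_le inf_le_left) (opPrimeIn_coprime q M))
      rw [hNz q hq hO]
      exact le_normalizer_inf (inf_le_right.trans (le_normalizer_opPrimeIn q M))
        (inf_le_left.trans le_normalizer)
    exact (le_inf ((zq_le_opIn r M).trans (opIn_le_opPrimeIn hq hr hrq M)) ((hzq r hr).trans hAX)).trans h1
  have hYF : (Nat.card (fitIn M)).Coprime (Nat.card Y) := coprime_of_pi_of_pi' hπ hYπ
  have key4 : ∀ r : ℕ, r.Prime → opIn r M ≠ ⊥ → Y ⊓ centralizer (zq r M : Set G) = ⊥ := by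
    intro r hr hO
    have hDM : Y ⊓ centralizer (zq r M : Set G) ≤ M :=
      (inf_le_right.trans (centralizer_le_normalizer' _)).trans (hNz r hr hO).le
    have hAD : A ≤ normalizer ((Y ⊓ centralizer (zq r M : Set G) : Subgroup G) : Set G) :=
      le_normalizer_inf hAY ((hAM.trans (le_normalizer_zq r M)).trans
        (normalizer_le_normalizer_centralizer _))
    have h1 : ⁅Y ⊓ centralizer (zq r M : Set G), A⁆ ≤ Y ⊓ centralizer (zq r M : Set G) :=
      commutator_le_of_le_normalizer hAD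
    have h2 : ⁅Y ⊓ centralizer (zq r M : Set G), A⁆ ≤ fitIn M :=
      commutator_le_of_le_of_le_normalizer hAF (hDM.trans (le_normalizer_fitIn M))
    have h3 : (Y ⊓ centralizer (zq r M : Set G)) ⊓ fitIn M = ⊥ :=
      (disjoint_of_coprime_natCard
        (Nat.Coprime.coprime_dvd_left (card_dvd_of_le inf_le_left) hYF.symm)).eq_bot
    have h4 : ⁅Y ⊓ centralizer (zq r M : Set G), A⁆ = ⊥ := le_bot_iff.mp (h3 ▸ le_inf h1 h2)
    exact htriv _ (commutator_eq_bot_iff_le_centralizer.mp h4)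
      (PiNat.of_dvd hYπ (card_dvd_of_le inf_le_left))
  have key5 : ∀ r : ℕ, r.Prime → opIn r M ≠ ⊥ → ⁅Y, zq r M⁆ = Y := by
    intro r hr hO
    haveI := Fact.mk hr
    have h1 := commutator_sup_centralizer (A := zq r M) (K := Y) ((hzq r hr).trans hAY)
      (Nat.Coprime.coprime_dvd_left
        (card_dvd_of_le ((zq_le_opIn r M).trans (opIn_le_fitIn r M))) hYF)
      (Or.inr (isSolvable_of_le hYX hXsol))
    rwa [key4 r hr hO, sup_bot_eq] at h1
  have key6 : ∀ q : ℕ, q.Prime → opIn q M ≠ ⊥ → Y ≤ opPrimeIn q X := by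
    intro q hq hO
    have hstep : ∀ r : ℕ, r.Prime → r ≠ q → opIn r M ≠ ⊥ → Y ≤ opPrimeIn q X := by
      intro r hr hrq hOr
      calc Y = ⁅Y, zq r M⁆ := (key5 r hr hOr).symm
        _ ≤ opPrimeIn q X := commutator_le_of_le_of_le_normalizer (key3 q r hq hr hrq hO)
            (hYX.trans (le_normalizer_opPrimeIn q X))
    by_cases h : r₁ = q
    · exact hstep r₂ hr₂ (fun h' => hr₁₂ (h.trans h'.symm)) hO₂
    · exact hstep r₁ hr₁ h hO₁
  -- the intersection of the `O_{q'}(X)`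
  obtain ⟨W, hW⟩ : ∃ W : Subgroup G, W = ⨅ q : {q : Nat.Primes // opIn (q : ℕ) M ≠ ⊥},
    opPrimeIn ((q : Nat.Primes) : ℕ) X := ⟨_, rfl⟩
  have hWle : ∀ q : ℕ, q.Prime → opIn q M ≠ ⊥ → W ≤ opPrimeIn q X := by
    intro q hq hO
    rw [hW]
    exact iInf_le (fun q : {q : Nat.Primes // opIn (q : ℕ) M ≠ ⊥} =>
      opPrimeIn ((q : Nat.Primes) : ℕ) X) ⟨⟨q, hq⟩, hO⟩
  have hYW : Y ≤ W := by
    rw [hW]
    exact le_iInf fun q => key6 _ q.1.2 q.2
  refine hYW.trans (le_piCoreOf ((hWle r₁ hr₁ hO₁).trans (opPrimeIn_le r₁ X)) ?_ ?_)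
  · apply le_normalizer_of_conj_mem
    intro x hx w hw
    rw [hW, mem_iInf] at hw ⊢
    intro q
    exact (mem_normalizer_iff.mp (le_normalizer_opPrimeIn _ X hx) w).mp (hw q)
  · intro s hs hsW
    refine ⟨hs, fun hsA => ?_⟩
    haveI := Fact.mk hs
    have hO : opIn s M ≠ ⊥ := opIn_ne_bot_of_dvd (hsA.trans (card_dvd_of_le hAF))
    have h1 := Nat.Coprime.coprime_dvd_left (card_dvd_of_le (hWle s hs hO)) (opPrimeIn_coprime s X)
    exact hs.one_lt.ne' (Nat.Coprime.eq_one_of_dvd h1.symm hsW)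

theorem not_rankLE_of_elementary [Finite G] {p k : ℕ} (hp : p.Prime) {E Z : Subgroup G} (hEZ : E ≤ Z)
    (hE : Cfsg.IsElementaryAbelian p E) (hk : p ^ k < Nat.card E) : ¬ Cfsg.RankLE k Z := by
  intro h
  have h1 := h p hp (E.subgroupOf Z) ?_ ?_
  · rw [card_subgroupOf hEZ] at h1
    exact absurd h1 (not_le.mpr hk)
  · have := hE.1
    exact ⟨⟨fun a b => Subtype.ext (Subtype.ext (by
      have := this.is_comm.comm (⟨a.1.1, mem_subgroupOf.mp a.2⟩ : E) ⟨b.1.1, mem_subgroupOf.mp b.2⟩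
      exact congrArg (Subtype.val : E → G) this))⟩⟩
  · intro a ha
    exact Subtype.ext (hE.2 a.1 (mem_subgroupOf.mp ha))

/-- B-G Theorem 8.1(a). -/
theorem bg81a [Finite G] (hG : Cfsg.IsMinSimpleOddOrder G) {M A₀ : Subgroup G} (hM : IsCoatom M)
    {p : ℕ} [hp : Fact p.Prime] (hA₀ : A₀ ≤ fitIn M) (hA₀e : Cfsg.IsElementaryAbelian p A₀)
    (hA₀3 : p ^ 3 ≤ Nat.card A₀) (hF : ¬ IsPGroup p (fitIn M)) :
    Cfsg.InUniqueMaximal (fitIn M ⊓ centralizer (A₀ : Set G)) := by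
  have hA₀1 : A₀ ≠ ⊥ := by
    rintro rfl
    rw [Subgroup.card_bot] at hA₀3
    exact absurd hA₀3 (not_le.mpr (Nat.one_lt_pow (by norm_num) hp.out.one_lt))
  obtain ⟨hzq, hπ, htriv⟩ := bg81a_aux hG hM hA₀ hA₀e hA₀1
  have hA₀p : IsPGroup p A₀ := isPGroup_of_elementary hA₀e
  have hOp1 : opIn p M ≠ ⊥ := fun h => hA₀1 (le_bot_iff.mp (h ▸ isPGroup_le_opIn hA₀ hA₀p))
  have h2 : ∃ r₁ r₂ : ℕ, r₁.Prime ∧ r₂.Prime ∧ r₁ ≠ r₂ ∧ opIn r₁ M ≠ ⊥ ∧ opIn r₂ M ≠ ⊥ := by
    by_contra hcon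
    apply hF
    have hall : ∀ r : ℕ, r.Prime → r ≠ p → opIn r M = ⊥ := by
      intro r hr hrp
      by_contra hO
      exact hcon ⟨r, p, hr, hp.out, hrp, hO, hOp1⟩
    have : fitIn M ≤ opIn p M := by
      rw [fitIn_eq_iSup_opIn]
      refine iSup_le fun r => ?_
      by_cases hrp : (r : ℕ) = p
      · rw [hrp]
      · rw [hall r r.2 hrp]; exact bot_le
    exact (opIn_isPGroup p M).to_le this
  have hTH := transHyp_of_fitting hG hM inf_le_left hzq hπ htriv h2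
  have hA₀A : A₀ ≤ fitIn M ⊓ centralizer (A₀ : Set G) := by
    refine le_inf hA₀ ?_
    have := hA₀e.1
    exact le_centralizer A₀
  have hZ : ¬ Cfsg.RankLE 2 ↥((fitIn M ⊓ centralizer (A₀ : Set G)) ⊓
      centralizer ((fitIn M ⊓ centralizer (A₀ : Set G) : Subgroup G) : Set G)) := by
    apply not_rankLE_of_elementary hp.out (E := A₀) (le_inf hA₀A ?_) hA₀e
      (lt_of_lt_of_le (Nat.pow_lt_pow_right hp.out.one_lt (by norm_num)) hA₀3)
    exact le_centralizer_iff.mp inf_le_right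
  have hK : transK (fitIn M ⊓ centralizer (A₀ : Set G)) = ⊥ :=
    htriv _ (transK_le_centralizer _) (piCoreOf_isPi _ _)
  refine ⟨M, ⟨hM, inf_le_left.trans (fitIn_le M)⟩, ?_⟩
  rintro L ⟨hL, hAL⟩
  apply bender_uniqueness hG hM hL (fun q hq => (hzq q hq).trans hAL) h2
  intro q hq hO
  haveI := Fact.mk hq
  have hqA : ¬ q ∣ Nat.card ↥(fitIn M ⊓ centralizer (A₀ : Set G)) := fun h =>
    opIn_ne_bot_of_dvd (h.trans (card_dvd_of_le inf_le_left)) hO
  exact inv_eq_bot_of_transK hG hM inf_le_left hTH hZ hK hπ hqA (opIn_isPGroup q L)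
    (hAL.trans (le_normalizer_opIn q L))


theorem exists_elementary_of_not_pRankLE {Z : Subgroup G} {p k : ℕ} (h : ¬ Cfsg.PRankLE p k Z) :
    ∃ E : Subgroup G, E ≤ Z ∧ Cfsg.IsElementaryAbelian p E ∧ p ^ k < Nat.card E := by
  unfold Cfsg.PRankLE at h
  push Not at h
  obtain ⟨E', hE'c, hE'p, hE'k⟩ := h
  refine ⟨E'.map Z.subtype, map_subtype_le _, ⟨?_, ?_⟩, ?_⟩
  · refine ⟨⟨?_⟩⟩
    rintro ⟨_, a, ha, rfl⟩ ⟨_, b, hb, rfl⟩
    apply Subtype.ext
    have := hE'c.is_comm.comm ⟨a, ha⟩ ⟨b, hb⟩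
    have h2 := congrArg (fun z : E' => ((z : Z) : G)) this
    simpa using h2
  · rintro _ ⟨a, ha, rfl⟩
    have := hE'p a ha
    have h2 := congrArg (fun z : Z => (z : G)) this
    simpa using h2
  · rw [card_map_of_injective Z.subtype_injective]
    exact hE'k

theorem opPrimeIn_eq_bot_of_forall [Finite G] {p : ℕ} [Fact p.Prime] {H : Subgroup G}
    (hsol : Group.IsSolvable H) (h : ∀ q : ℕ, q.Prime → q ≠ p → opIn q H = ⊥) : opPrimeIn p H = ⊥ := by
  have hF : fitIn H ≤ opIn p H := by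
    rw [fitIn_eq_iSup_opIn]
    refine iSup_le fun r => ?_
    by_cases hrp : (r : ℕ) = p
    · rw [hrp]
    · rw [h r r.2 hrp]; exact bot_le
  have h1 : opPrimeIn p H ≤ fitIn H :=
    (le_inf (opPrimeIn_le p H) ((opPrimeIn_le_centralizer_opIn p H).trans (centralizer_le hF))).trans
      (inf_centralizer_fitIn_le hsol)
  exact eq_bot_of_isPGroup_of_coprime ((opIn_isPGroup p H).to_le (h1.trans hF)) (opPrimeIn_coprime p H)

theorem le_normalizer_zL_of_opPrimeIn [Finite G] {p : ℕ} [Fact p.Prime] (hp2 : p ≠ 2) {H T : Subgroup G}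
    (hsol : Group.IsSolvable H) (hodd : Odd (Nat.card H)) (hT : IsSylowIn p T H)
    (hO : opPrimeIn p H = ⊥) : H ≤ normalizer (zL T : Set G) := by
  obtain ⟨K, hKH, hKn, hKp, hfac⟩ := puig_factorization_rel hp2 hsol hodd hT
  have hK : K = ⊥ := le_bot_iff.mp (hO ▸ le_opPrimeIn hKH hKn hKp)
  intro h hh
  obtain ⟨k, hk, n, hn, rfl⟩ := hfac h hh
  rw [hK, mem_bot] at hk
  rw [hk, one_mul]
  exact hn.2

theorem isSylowIn_top_of_normalizer_le [Finite G] {p : ℕ} [Fact p.Prime] {T H : Subgroup G}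
    (hT : IsSylowIn p T H) (hN : normalizer (T : Set G) ≤ H) : IsSylowIn p T ⊤ := by
  obtain ⟨S, hS, hTS⟩ := exists_isSylowIn_ge (K := ⊤) le_top hT.isPGroup
  rcases eq_or_lt_of_le hTS with h | h
  · exact h ▸ hS
  · obtain ⟨t, htS, htN, htT⟩ := exists_mem_normalizer_not_mem hS.isPGroup h
    have hV := hT.eq_of_le (V := S ⊓ normalizer (T : Set G)) (inf_le_right.trans hN)
      (hS.isPGroup.to_le inf_le_left) (le_inf hTS le_normalizer)
    exact absurd (hV ▸ (mem_inf.mpr ⟨htS, htN⟩)) htT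

theorem opIn_le_of_isSylowIn [Finite G] {p : ℕ} [Fact p.Prime] {T H : Subgroup G}
    (hT : IsSylowIn p T H) : opIn p H ≤ T := by
  obtain ⟨P', rfl⟩ := hT.exists_sylow
  exact map_mono (Cfsg.Agent.Lib.Helper14.pCore_le_sylow P')

/-- `p`-stability: abelian normal subgroups of a Sylow `p`-subgroup lie in `O_p(H)` when `O_{p'}(H) = 1`. -/
theorem abelian_normal_le_opIn [Finite G] {p : ℕ} [Fact p.Prime] (hp2 : p ≠ 2) {H T A : Subgroup G}
    (hsol : Group.IsSolvable H) (hodd : Odd (Nat.card H)) (hO : opPrimeIn p H = ⊥)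
    (hT : IsSylowIn p T H) (hAT : A ≤ T) (hAc : IsMulCommutative A)
    (hTA : T ≤ normalizer (A : Set G)) : A ≤ opIn p H := by
  have hO' : Cfsg.pPrimeCore p H = ⊥ := (map_eq_bot_iff_of_injective _ H.subtype_injective).mp hO
  haveI := pCore_normal' p H
  have hTp : IsPGroup p (Cfsg.pCore p H) := Cfsg.Agent.Lib.Helper14.isPGroup_pCore
  have hC : IsPGroup p (centralizer (Cfsg.pCore p H : Set H)) :=
    hTp.to_le (centralizer_pCore_le_of_solvable hO')
  intro a ha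
  have haH : a ∈ H := hT.le (hAT ha)
  refine ⟨⟨a, haH⟩, ?_, rfl⟩
  apply pstable_mem_pCore hp2 hodd _ hTp hC
  intro u hu
  have hs : (u : G) ∈ T := opIn_le_of_isSylowIn hT ⟨u, hu, rfl⟩
  obtain ⟨s, hsH⟩ := u
  have hc : a * s * a⁻¹ * s⁻¹ ∈ A := by
    have h1 : s * a⁻¹ * s⁻¹ ∈ A := (mem_normalizer_iff.1 (hTA hs) a⁻¹).1 (A.inv_mem ha)
    have : a * s * a⁻¹ * s⁻¹ = a * (s * a⁻¹ * s⁻¹) := by group
    rw [this]
    exact A.mul_mem ha h1
  have hcomm : a * (a * s * a⁻¹ * s⁻¹) = (a * s * a⁻¹ * s⁻¹) * a :=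
    congrArg Subtype.val (hAc.is_comm.comm ⟨a, ha⟩ ⟨_, hc⟩)
  have key : a * (a * s * a⁻¹ * s⁻¹) * a⁻¹ = a * s * a⁻¹ * s⁻¹ := by
    rw [hcomm, mul_assoc, mul_inv_cancel, mul_one]
  exact Subtype.ext key


/-- uniqueness from "all `p`-local-like overgroups have trivial `p'`-core" (end of B-G 8.1(b)). -/
theorem unique_of_opPrimeIn_eq_bot [Finite G] (hG : Cfsg.IsMinSimpleOddOrder G) {M A : Subgroup G}
    (hM : IsCoatom M) {p : ℕ} [hp : Fact p.Prime] (hp2 : p ≠ 2) (hA1 : A ≠ ⊥)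
    (hO : ∀ X : Subgroup G, IsCoatom X → A ≤ X → opPrimeIn p X = ⊥)
    {H : Subgroup G} (hH : IsCoatom H) (hAH : A ≤ H) (hAM : A ≤ M) (hAp : IsPGroup p A) : H = M := by
  have hz : ∀ X T : Subgroup G, IsCoatom X → A ≤ T → IsSylowIn p T X →
      normalizer (zL T : Set G) = X := by
    intro X T hX hAT hT
    have hT1 : T ≠ ⊥ := fun h => hA1 (le_bot_iff.mp (h ▸ hAT))
    apply normalizer_eq_of_coatom hG hX (zL_ne_bot hT.isPGroup hT1) ((zL_le T).trans hT.le)
    exact le_normalizer_zL_of_opPrimeIn hp2 (solvable_of_ne_top hG hX.1)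
      (hG.1.of_dvd_nat (card_subgroup_dvd_card X)) hT (hO X hX (hAT.trans hT.le))
  have hsyl : ∀ X T : Subgroup G, IsCoatom X → A ≤ T → IsSylowIn p T X → IsSylowIn p T ⊤ := by
    intro X T hX hAT hT
    exact isSylowIn_top_of_normalizer_le hT ((normalizer_le_normalizer_zL T).trans (hz X T hX hAT hT).le)
  have step : ∀ H T : Subgroup G, IsCoatom H → H ≠ M → A ≤ T → T ≤ H → T ≤ M → IsPGroup p T →
      ∃ H' T' : Subgroup G, IsCoatom H' ∧ H' ≠ M ∧ A ≤ T' ∧ T' ≤ H' ∧ T' ≤ M ∧ IsPGroup p T' ∧ T < T' := by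
    intro H T hH hHM hAT hTH hTM hTp
    obtain ⟨P₂, hP₂, hTP₂⟩ := exists_isSylowIn_ge hTM hTp
    obtain ⟨P₁, hP₁, hTP₁⟩ := exists_isSylowIn_ge hTH hTp
    have hgrow : ∀ P : Subgroup G, IsPGroup p P → T < P → T < P ⊓ normalizer (T : Set G) := by
      intro P hP hlt
      obtain ⟨t, htP, htN, htT⟩ := exists_mem_normalizer_not_mem hP hlt
      exact lt_of_le_of_ne (le_inf hlt.le le_normalizer)
        (fun h => htT (h ▸ (mem_inf.mpr ⟨htP, htN⟩)))
    rcases eq_or_lt_of_le hTP₂ with h2 | h2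
    · exfalso
      subst h2
      have h1 : P₁ = T := (hsyl M T hM hAT hP₂).eq_of_le le_top hP₁.isPGroup hTP₁
      subst h1
      exact hHM ((hz H P₁ hH hAT hP₁).symm.trans (hz M P₁ hM hAT hP₂))
    · have hT₂ := hgrow P₂ hP₂.isPGroup h2
      rcases eq_or_lt_of_le hTP₁ with h1 | h1
      · subst h1
        refine ⟨H, P₂ ⊓ normalizer (T : Set G), hH, hHM, hAT.trans hT₂.le, ?_,
          inf_le_left.trans hP₂.le, hP₂.isPGroup.to_le inf_le_left, hT₂⟩
        exact inf_le_right.trans ((normalizer_le_normalizer_zL T).trans (hz H T hH hAT hP₁).le)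
      · have hT₁ := hgrow P₁ hP₁.isPGroup h1
        have hT1 : T ≠ ⊥ := fun h => hA1 (le_bot_iff.mp (h ▸ hAT))
        have hTtop : T ≠ ⊤ := fun h => hM.1 (top_le_iff.mp (h ▸ hTM))
        obtain ⟨H₂, hH₂, hNH₂⟩ :=
          (eq_top_or_exists_le_coatom (normalizer (T : Set G))).resolve_left
            (normalizer_ne_top hG hT1 hTtop)
        by_cases hH₂M : H₂ = M
        · subst hH₂M
          exact ⟨H, P₁ ⊓ normalizer (T : Set G), hH, hHM, hAT.trans hT₁.le, inf_le_left.trans hP₁.le,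
            inf_le_right.trans hNH₂, hP₁.isPGroup.to_le inf_le_left, hT₁⟩
        · exact ⟨H₂, P₂ ⊓ normalizer (T : Set G), hH₂, hH₂M, hAT.trans hT₂.le,
            inf_le_right.trans hNH₂, inf_le_left.trans hP₂.le, hP₂.isPGroup.to_le inf_le_left, hT₂⟩
  have hnone : ∀ T H : Subgroup G, IsCoatom H → H ≠ M → A ≤ T → T ≤ H → T ≤ M → IsPGroup p T → False := by
    intro T
    induction T using WellFoundedGT.induction with
    | ind T ih =>
      intro H hH hHM hAT hTH hTM hTp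
      obtain ⟨H', T', h1, h2, h3, h4, h5, h6, h7⟩ := step H T hH hHM hAT hTH hTM hTp
      exact ih T' h7 H' h1 h2 h3 h4 h5 h6
  by_contra hHM
  exact hnone A H hH hHM le_rfl hAH hAM hAp

/-- B-G Theorem 8.1(b). -/
theorem bg81b [Finite G] (hG : Cfsg.IsMinSimpleOddOrder G) {M : Subgroup G} (hM : IsCoatom M)
    {p : ℕ} [hp : Fact p.Prime] (hF : IsPGroup p (fitIn M)) (hF1 : fitIn M ≠ ⊥) {P : Subgroup G}
    (hP : IsSylowIn p P M) :
    IsSylowIn p P ⊤ ∧ ∀ A : Subgroup G, Cfsg.IsSCN P A → ¬ Cfsg.PRankLE p 2 ↥A →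
      A ≤ fitIn M ∧ Cfsg.InUniqueMaximal A := by
  have hMsol := solvable_of_ne_top hG hM.1
  have hModd : Odd (Nat.card M) := hG.1.of_dvd_nat (card_subgroup_dvd_card M)
  have hpG : p ∣ Nat.card G := (dvd_card_of_isPGroup_ne_bot hF hF1).trans (card_subgroup_dvd_card _)
  have hp2 : p ≠ 2 := ne_two_of_dvd_card hG hpG
  have hOq : ∀ q : ℕ, q.Prime → q ≠ p → opIn q M = ⊥ := by
    intro q hq hqp
    haveI := Fact.mk hq
    apply eq_bot_of_isPGroup_of_coprime (opIn_isPGroup q M)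
    obtain ⟨n, hn⟩ := IsPGroup.iff_card.mp (hF.to_le (opIn_le_fitIn q M))
    rw [hn]
    exact Nat.Coprime.pow_left n ((Nat.coprime_primes hp.out hq).mpr (Ne.symm hqp))
  have hOM : opPrimeIn p M = ⊥ := opPrimeIn_eq_bot_of_forall hMsol hOq
  have hFO : fitIn M ≤ opIn p M := isPGroup_le_opIn le_rfl hF
  have hFP : fitIn M ≤ P := hFO.trans (opIn_le_of_isSylowIn hP)
  have hP1 : P ≠ ⊥ := fun h => hF1 (le_bot_iff.mp (h ▸ hFP))
  have hMz : normalizer (zL P : Set G) = M :=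
    normalizer_eq_of_coatom hG hM (zL_ne_bot hP.isPGroup hP1) ((zL_le P).trans hP.le)
      (le_normalizer_zL_of_opPrimeIn hp2 hMsol hModd hP hOM)
  have hPtop : IsSylowIn p P ⊤ :=
    isSylowIn_top_of_normalizer_le hP ((normalizer_le_normalizer_zL P).trans hMz.le)
  refine ⟨hPtop, ?_⟩
  intro A hA hA3
  obtain ⟨hAP, hPA, hCA⟩ := hA
  have hAC : A ≤ centralizer (A : Set G) := by
    conv_lhs => rw [← hCA]
    exact inf_le_right
  have hAc : IsMulCommutative A :=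
    ⟨⟨fun a b => Subtype.ext (mem_centralizer_iff.mp (hAC b.2) a.1 a.2)⟩⟩
  have hAp : IsPGroup p A := hP.isPGroup.to_le hAP
  have hAO : A ≤ opIn p M := abelian_normal_le_opIn hp2 hMsol hModd hOM hP hAP hAc hPA
  have hAF : A ≤ fitIn M := hAO.trans (opIn_le_fitIn p M)
  refine ⟨hAF, ?_⟩
  obtain ⟨E, hEA, hEe, hE3⟩ := exists_elementary_of_not_pRankLE hA3
  have hA1 : A ≠ ⊥ := by
    rintro rfl
    rw [le_bot_iff] at hEA
    rw [hEA, Subgroup.card_bot] at hE3
    exact absurd hE3 (not_lt.mpr (Nat.one_le_pow _ _ hp.out.pos))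
  have hidx : ¬ p ∣ P.index := by
    have := hPtop.not_dvd
    rwa [relIndex_top_right] at this
  have hTH : Cfsg.TransitivityHypothesis A := by
    apply Cfsg.Agent.S1396.result hG p hpG A hAp hAc
    refine Or.inr ⟨hP.isPGroup.toSylow hidx, ?_, ?_⟩
    · rw [IsPGroup.toSylow_coe]
      exact ⟨hAP, hPA, hCA⟩
    · intro h1
      apply hA3
      intro B hBc hBp
      exact (h1 B hBc hBp).trans (Nat.pow_le_pow_right hp.out.pos (by norm_num))
  have hOp1 : opIn p M ≠ ⊥ := fun h => hA1 (le_bot_iff.mp (h ▸ hAO))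
  have hzA : zq p M ≤ A := by
    rw [← hCA]
    refine le_inf ((zq_le_opIn p M).trans (opIn_le_of_isSylowIn hP)) ?_
    exact le_centralizer_iff.mp (hAF.trans (fitIn_le_centralizer_zq hp.out M))
  have hNz : normalizer (zq p M : Set G) = M :=
    normalizer_eq_of_coatom hG hM (zq_ne_bot hOp1) (zq_le p M) (le_normalizer_zq p M)
  have hCAM : centralizer (A : Set G) ≤ M :=
    ((centralizer_le hzA).trans (centralizer_le_normalizer' _)).trans hNz.le
  have hpA : p ∣ Nat.card A := dvd_card_of_isPGroup_ne_bot hAp hA1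
  have hK : transK A = ⊥ := by
    have hKC : transK A ≤ centralizer (A : Set G) := transK_le_centralizer A
    have hKM : transK A ≤ M := hKC.trans hCAM
    have hKcop : (Nat.card (transK A)).Coprime p :=
      (Nat.Coprime.coprime_dvd_left hpA (coprime_of_piNat_primesNotDvd (piCoreOf_isPi _ _))).symm
    have hKA : ⁅transK A, A⁆ = ⊥ := commutator_eq_bot_iff_le_centralizer.mpr hKC
    have hAK : ⁅A, transK A⁆ = ⊥ := by rw [commutator_comm]; exact hKA
    have hKF : transK A ≤ normalizer (fitIn M : Set G) := hKM.trans (le_normalizer_fitIn M)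
    have h3 : ⁅⁅fitIn M, transK A⁆, A⁆ = ⊥ := by
      apply commutator_commutator_eq_bot_of_rotate
      · rw [hKA]; exact commutator_bot_left _
      · have : ⁅A, fitIn M⁆ ≤ A := commutator_le_of_le_normalizer (hFP.trans hPA)
        exact le_bot_iff.mp (hAK ▸ commutator_mono this le_rfl)
    have h4 : ⁅fitIn M, transK A⁆ ≤ A :=
      (le_inf ((commutator_le_of_le_normalizer hKF).trans hFP)
        (commutator_eq_bot_iff_le_centralizer.mp h3)).trans hCA.le
    have hcopF : (Nat.card (transK A)).Coprime (Nat.card (fitIn M)) := by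
      obtain ⟨n, hn⟩ := IsPGroup.iff_card.mp hF
      rw [hn]
      exact Nat.Coprime.pow_right n hKcop
    have h5 := commutator_commutator_eq (A := transK A) (K := fitIn M) hKF hcopF
      (Or.inr (isSolvable_of_le (fitIn_le M) hMsol))
    have h6 : ⁅fitIn M, transK A⁆ = ⊥ := by
      rw [← h5]
      exact le_bot_iff.mp (hAK ▸ commutator_mono h4 le_rfl)
    have h7 : transK A ≤ centralizer (fitIn M : Set G) :=
      le_centralizer_iff.mp (commutator_eq_bot_iff_le_centralizer.mp h6)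
    exact eq_bot_of_isPGroup_of_coprime
      (hF.to_le ((le_inf hKM h7).trans (inf_centralizer_fitIn_le hMsol))) hKcop
  have hπ : ∀ r : ℕ, r.Prime → r ∣ Nat.card (fitIn M) → r ∣ Nat.card A := by
    intro r hr hrF
    obtain ⟨n, hn⟩ := IsPGroup.iff_card.mp hF
    rw [hn] at hrF
    rw [(Nat.prime_dvd_prime_iff_eq hr hp.out).mp (hr.dvd_of_dvd_pow hrF)]
    exact hpA
  have hZ : ¬ Cfsg.RankLE 2 ↥(A ⊓ centralizer (A : Set G)) :=
    not_rankLE_of_elementary hp.out (le_inf hEA (hEA.trans hAC)) hEe hE3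
  have hO : ∀ X : Subgroup G, IsCoatom X → A ≤ X → opPrimeIn p X = ⊥ := by
    intro X hX hAX
    apply opPrimeIn_eq_bot_of_forall (solvable_of_ne_top hG hX.1)
    intro q hq hqp
    haveI := Fact.mk hq
    have hqA : ¬ q ∣ Nat.card A := by
      intro h
      obtain ⟨n, hn⟩ := IsPGroup.iff_card.mp hAp
      rw [hn] at h
      exact hqp ((Nat.prime_dvd_prime_iff_eq hq hp.out).mp (hq.dvd_of_dvd_pow h))
    exact inv_eq_bot_of_transK hG hM hAF hTH hZ hK hπ hqA (opIn_isPGroup q X)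
      (hAX.trans (le_normalizer_opIn q X))
  refine ⟨M, ⟨hM, hAF.trans (fitIn_le M)⟩, ?_⟩
  rintro L ⟨hL, hAL⟩
  exact unique_of_opPrimeIn_eq_bot hG hM hp2 hA1 hO hL hAL (hAF.trans (fitIn_le M)) hAp

end Cfsg.Agent.Lib.Helper30
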