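import Cfsg.Agent.Lib.Helper58.BG9e
import Cfsg.Agent.Lib.Helper30.Transitivity4

/-!
B-G 9.6 (`SCN_3(P) ⊆ 𝓤`): the standing hypotheses of the proof by contradiction.

`A` is an abelian `p`-subgroup of rank at least `3` satisfying the transitivity hypothesis and the
Thompson transitivity theorem, `X₀ ≠ 1` is a subgroup of `A` contained in `N(Q)'` for every maximal
`A`-invariant `q`-subgroup `Q`, and `A` is not a uniqueness subgroup.
-/

set_option autoImplicit false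
set_option linter.style.haveILetI false

namespace Cfsg.Agent.Lib.Helper30

open Subgroup Cfsg.Agent.Lib.Helper28

universe u

variable {G : Type u} [Group G]

structure Ctx96 (p : ℕ) (A X₀ : Subgroup G) : Prop where
  isPGroup : IsPGroup p A
  comm : IsMulCommutative A
  rank : ¬ Cfsg.PRankLE p 2 ↥A
  inv : ∀ X Y : Subgroup G, X ≠ ⊤ → A ≤ X → Y ≤ X → ¬ p ∣ Nat.card Y →
    A ≤ normalizer (Y : Set G) → Y ≤ opPrimeIn p X
  trans : ∀ q : ℕ, q.Prime → q ≠ p → ∀ Q₁ ∈ Cfsg.maxInvSubgroups ⊤ A {q},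
    ∀ Q₂ ∈ Cfsg.maxInvSubgroups ⊤ A {q}, KConj A Q₁ Q₂
  le : X₀ ≤ A
  ne_bot : X₀ ≠ ⊥
  der : ∀ q : ℕ, q.Prime → q ≠ p → ∀ Q ∈ Cfsg.maxInvSubgroups ⊤ A {q},
    X₀ ≤ ⁅normalizer (Q : Set G), normalizer (Q : Set G)⁆
  notU : ¬ Cfsg.InUniqueMaximal A

end Cfsg.Agent.Lib.Helper30
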