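import Cfsg.Agent.Lib.Helper30.Transitivity4
import Cfsg.Agent.Lib.Helper30.Puig2
import Cfsg.Agent.Lib.Helper28.Rel
import Cfsg.Agent.Lib.Helper29.PConstr
import Cfsg.Agent.Lib.Helper27.SolvBalance
import Cfsg.Agent.S1312
import Cfsg.Agent.S0044

/-!
Bender's uniqueness arguments in a minimal simple group of odd order (B-G Section 8).
-/

set_option autoImplicit false

namespace Cfsg.Agent.Lib.Helper30

open Subgroup Cfsg.Agent.Lib.Helper28
open scoped Pointwise commutatorElement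

universe u

variable {G : Type u} [Group G]

/-- `O_{q'}(N_X(P)) ≤ O_{q'}(X)` for a `q`-subgroup `P` of a solvable group `X`, ambient form. -/
theorem le_opPrimeIn_of_normalizer [Finite G] {q : ℕ} [Fact q.Prime] {X P Y : Subgroup G}
    (hX : Group.IsSolvable X) (hPX : P ≤ X) (hP : IsPGroup q P) (hYX : Y ≤ X)
    (hYP : Y ≤ normalizer (P : Set G)) (hYq : (Nat.card Y).Coprime q)
    (hn : X ⊓ normalizer (P : Set G) ≤ normalizer (Y : Set G)) : Y ≤ opPrimeIn q X := by
  have hc := Cfsg.Agent.Lib.Helper29.isPConstrained_iff_charP.mp (isPConstrained_of_solvable q X)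
  have hP' : IsPGroup q (P.subgroupOf X) := hP.comap_subtype
  have h1 := Cfsg.Agent.Lib.Helper29.core_normalizer_eq hc (P.subgroupOf X) hP'
  have hN : normalizer ((P.subgroupOf X : Subgroup X) : Set X) = (normalizer (P : Set G)).subgroupOf X :=
    (subgroupOf_normalizer_eq hPX).symm
  have hNY : normalizer ((Y.subgroupOf X : Subgroup X) : Set X) = (normalizer (Y : Set G)).subgroupOf X :=
    (subgroupOf_normalizer_eq hYX).symm
  have h2 : Y.subgroupOf X ≤ opPrimeIn q (normalizer ((P.subgroupOf X : Subgroup X) : Set X)) := by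
    apply le_opPrimeIn
    · rw [hN]
      intro y hy
      exact mem_subgroupOf.mpr (hYP (mem_subgroupOf.mp hy))
    · rw [hN, hNY]
      intro y hy
      exact mem_subgroupOf.mpr (hn (mem_inf.mpr ⟨y.2, mem_subgroupOf.mp hy⟩))
    · rwa [card_subgroupOf hYX]
  apply le_map_subtype_of_subgroupOf_le hYX
  have h3 : opPrimeIn q (normalizer ((P.subgroupOf X : Subgroup X) : Set X)) ≤ Cfsg.pPrimeCore q X := by
    unfold opPrimeIn
    rw [h1]
    exact inf_le_left
  exact h2.trans h3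

theorem eq_bot_of_isPGroup_of_coprime {q : ℕ} {Z : Subgroup G} (hZ : IsPGroup q Z)
    (hc : (Nat.card Z).Coprime q) : Z = ⊥ := by
  rw [eq_bot_iff]
  intro x hx
  obtain ⟨k, hk⟩ := hZ ⟨x, hx⟩
  have h1 : orderOf x ∣ q ^ k := orderOf_dvd_of_pow_eq_one (congrArg Subtype.val hk)
  have h2 : orderOf x ∣ Nat.card Z := by
    have := orderOf_dvd_natCard (⟨x, hx⟩ : Z)
    rwa [Subgroup.orderOf_mk] at this
  have h3 : orderOf x = 1 := Nat.eq_one_of_dvd_coprimes (Nat.Coprime.pow_right k hc) h2 h1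
  exact mem_bot.mpr (orderOf_eq_one_iff.mp h3)

theorem opPrimeIn_le_centralizer_opIn [Finite G] (q : ℕ) (X : Subgroup G) :
    opPrimeIn q X ≤ centralizer (opIn q X : Set G) := by
  rw [← commutator_eq_bot_iff_le_centralizer]
  apply commutator_eq_bot_of_normalize ((opPrimeIn_le q X).trans (le_normalizer_opIn q X))
    ((opIn_le q X).trans (le_normalizer_opPrimeIn q X))
  apply eq_bot_of_isPGroup_of_coprime ((opIn_isPGroup q X).to_le inf_le_right)
  exact Nat.Coprime.coprime_dvd_left (card_dvd_of_le inf_le_left) (opPrimeIn_coprime q X)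

theorem opIn_le_opPrimeIn [Finite G] {q r : ℕ} (hq : q.Prime) (hr : r.Prime) (hqr : r ≠ q)
    (X : Subgroup G) : opIn r X ≤ opPrimeIn q X := by
  refine le_opPrimeIn (opIn_le _ _) (le_normalizer_opIn _ _) ?_
  have : Fact r.Prime := ⟨hr⟩
  obtain ⟨n, hn⟩ := IsPGroup.iff_card.mp (opIn_isPGroup r X)
  rw [hn]
  exact Nat.Coprime.pow_left n ((Nat.coprime_primes hr hq).mpr hqr)

/-- the centre of `O_q(X)` -/
def zq (q : ℕ) (X : Subgroup G) : Subgroup G := opIn q X ⊓ centralizer (opIn q X : Set G)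

theorem zq_le_opIn (q : ℕ) (X : Subgroup G) : zq q X ≤ opIn q X := inf_le_left

theorem zq_le (q : ℕ) (X : Subgroup G) : zq q X ≤ X := inf_le_left.trans (opIn_le q X)

theorem zq_isPGroup [Finite G] (q : ℕ) (X : Subgroup G) : IsPGroup q (zq q X) :=
  (opIn_isPGroup q X).to_le inf_le_left

theorem le_normalizer_zq (q : ℕ) (X : Subgroup G) : X ≤ normalizer (zq q X : Set G) :=
  (le_normalizer_opIn q X).trans (normalizer_le_normalizer_inf_centralizer _)

theorem zq_ne_bot [Finite G] {q : ℕ} [Fact q.Prime] {X : Subgroup G} (h : opIn q X ≠ ⊥) :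
    zq q X ≠ ⊥ := by
  have : Nontrivial (opIn q X) := (Subgroup.nontrivial_iff_ne_bot _).mpr h
  have := (opIn_isPGroup q X).center_nontrivial
  obtain ⟨z, hz⟩ := exists_ne (1 : center (opIn q X))
  intro h0
  apply hz
  have h1 : ((z : opIn q X) : G) ∈ zq q X := by
    refine mem_inf.mpr ⟨(z : opIn q X).2, ?_⟩
    rw [mem_centralizer_iff]
    intro y hy
    exact congrArg Subtype.val (mem_center_iff.mp z.2 ⟨y, hy⟩)
  rw [h0, mem_bot] at h1
  exact Subtype.ext (Subtype.ext h1)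

theorem fitIn_le_centralizer_zq [Finite G] {q : ℕ} (hq : q.Prime) (X : Subgroup G) :
    fitIn X ≤ centralizer (zq q X : Set G) := by
  rw [fitIn_eq_iSup_opIn]
  refine iSup_le fun r => ?_
  by_cases hr : (r : ℕ) = q
  · rw [hr, le_centralizer_iff]
    exact inf_le_right
  · exact (opIn_le_opPrimeIn hq r.2 hr X).trans
      ((opPrimeIn_le_centralizer_opIn q X).trans (centralizer_le (zq_le_opIn q X)))

theorem inf_centralizer_fitIn_le [Finite G] {X : Subgroup G} (hX : Group.IsSolvable X) :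
    X ⊓ centralizer (fitIn X : Set G) ≤ fitIn X := by
  intro x hx
  obtain ⟨hxX, hxC⟩ := mem_inf.mp hx
  refine ⟨⟨x, hxX⟩, Cfsg.Agent.S0044.result ?_, rfl⟩
  rw [Subgroup.mem_centralizer_iff]
  intro y hy
  exact Subtype.ext (Subgroup.mem_centralizer_iff.mp hxC y ⟨y, hy, rfl⟩)

theorem fitIn_le_opPrimeIn_of_opIn_eq_bot [Finite G] {q : ℕ} [Fact q.Prime] {X : Subgroup G}
    (h : opIn q X = ⊥) : fitIn X ≤ opPrimeIn q X := by
  have := fitIn_le_sup q X
  rw [h, bot_sup_eq] at this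
  exact this.trans inf_le_left

theorem opIn_ne_bot_of_dvd [Finite G] {q : ℕ} [hq : Fact q.Prime] {X : Subgroup G}
    (h : q ∣ Nat.card (fitIn X)) : opIn q X ≠ ⊥ := by
  intro h0
  have h1 := card_dvd_of_le (fitIn_le_opPrimeIn_of_opIn_eq_bot h0)
  have h2 := opPrimeIn_coprime q X
  exact hq.out.one_lt.ne' (Nat.eq_one_of_dvd_coprimes h2 (h.trans h1) dvd_rfl)

theorem normalizer_eq_of_coatom (hG : Cfsg.IsMinSimpleOddOrder G) {H X : Subgroup G} (hH : IsCoatom H)
    (hX1 : X ≠ ⊥) (hXH : X ≤ H) (hn : H ≤ normalizer (X : Set G)) : normalizer (X : Set G) = H := by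
  by_contra hcon
  refine normalizer_ne_top hG hX1 ?_ (hH.2 _ (lt_of_le_of_ne hn (Ne.symm hcon)))
  rintro rfl
  exact hH.1 (top_le_iff.mp hXH)

/-- One step of Bender's argument. -/
theorem bender_step [Finite G] (hG : Cfsg.IsMinSimpleOddOrder G) {H L : Subgroup G} (hH : IsCoatom H)
    (hL : IsCoatom L) (hZ : ∀ q : ℕ, q.Prime → zq q H ≤ L)
    (h2 : ∃ r₁ r₂ : ℕ, r₁.Prime ∧ r₂.Prime ∧ r₁ ≠ r₂ ∧ opIn r₁ H ≠ ⊥ ∧ opIn r₂ H ≠ ⊥)
    (h0 : ∀ q : ℕ, q.Prime → opIn q H = ⊥ → opIn q L = ⊥) :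
    (∀ q : ℕ, q.Prime → opIn q L ≤ H) ∧ (∀ q : ℕ, q.Prime → opIn q H ≠ ⊥ → opIn q L ≠ ⊥) := by
  have hN : ∀ q : ℕ, q.Prime → opIn q H ≠ ⊥ → normalizer (zq q H : Set G) = H := by
    intro q hq hqH
    have := Fact.mk hq
    exact normalizer_eq_of_coatom hG hH (zq_ne_bot hqH) (zq_le q H) (le_normalizer_zq q H)
  have key : ∀ q r : ℕ, q.Prime → r.Prime → r ≠ q → opIn q H ≠ ⊥ → zq r H ≤ opPrimeIn q L := by
    intro q r hq hr hqr hqH
    have := Fact.mk hq
    have h1 : opPrimeIn q H ⊓ L ≤ opPrimeIn q L := by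
      apply le_opPrimeIn_of_normalizer (solvable_of_ne_top hG hL.1) (hZ q hq) (zq_isPGroup q H)
        inf_le_right
      · rw [hN q hq hqH]; exact inf_le_left.trans (opPrimeIn_le q H)
      · exact Nat.Coprime.coprime_dvd_left (card_dvd_of_le inf_le_left) (opPrimeIn_coprime q H)
      · rw [hN q hq hqH]
        exact le_normalizer_inf (inf_le_right.trans (le_normalizer_opPrimeIn q H))
          (inf_le_left.trans le_normalizer)
    exact (le_inf ((zq_le_opIn r H).trans (opIn_le_opPrimeIn hq hr hqr H)) (hZ r hr)).trans h1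
  have key2 : ∀ q r : ℕ, q.Prime → r.Prime → r ≠ q → opIn q H ≠ ⊥ →
      opIn q L ≤ centralizer (zq r H : Set G) := by
    intro q r hq hr hqr hqH
    rw [le_centralizer_iff]
    exact (key q r hq hr hqr hqH).trans (opPrimeIn_le_centralizer_opIn q L)
  constructor
  · intro q hq
    by_cases hqH : opIn q H = ⊥
    · rw [h0 q hq hqH]; exact bot_le
    obtain ⟨r, hr, hrq, hrH⟩ : ∃ r : ℕ, r.Prime ∧ r ≠ q ∧ opIn r H ≠ ⊥ := by
      obtain ⟨r₁, r₂, hr₁, hr₂, h12, hH₁, hH₂⟩ := h2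
      by_cases h : r₁ = q
      · exact ⟨r₂, hr₂, fun h' => h12 (h.trans h'.symm), hH₂⟩
      · exact ⟨r₁, hr₁, h, hH₁⟩
    calc opIn q L ≤ centralizer (zq r H : Set G) := key2 q r hq hr hrq hqH
      _ ≤ normalizer (zq r H : Set G) := centralizer_le_normalizer _
      _ = H := hN r hr hrH
  · intro q hq hqH hqL
    have := Fact.mk hq
    have h1 : fitIn L ≤ centralizer (zq q H : Set G) := by
      rw [fitIn_eq_iSup_opIn]
      refine iSup_le fun r => ?_
      by_cases hr : (r : ℕ) = q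
      · rw [hr, hqL]; exact bot_le
      by_cases hrH : opIn (r : ℕ) H = ⊥
      · rw [h0 r r.2 hrH]; exact bot_le
      · exact key2 r q r.2 hq (Ne.symm hr) hrH
    have h3 : zq q H ≤ opPrimeIn q L :=
      ((le_inf (hZ q hq) (le_centralizer_iff.mp h1)).trans
        (inf_centralizer_fitIn_le (solvable_of_ne_top hG hL.1))).trans
        (fitIn_le_opPrimeIn_of_opIn_eq_bot hqL)
    apply zq_ne_bot hqH
    apply eq_bot_of_isPGroup_of_coprime (zq_isPGroup q H)
    exact Nat.Coprime.coprime_dvd_left (card_dvd_of_le h3) (opPrimeIn_coprime q L)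

theorem fstar_map_eq_fitIn {X : Subgroup G} (hX : Group.IsSolvable X) :
    (Cfsg.generalizedFittingSubgroup ↥X).map X.subtype = fitIn X := by
  unfold fitIn Cfsg.generalizedFittingSubgroup
  rw [Cfsg.Agent.Lib.Helper27.layer_eq_bot_of_isSolvable hX, bot_sup_eq]

/-- Bender: two maximal subgroups, each containing the centres of the `O_q` of the other... -/
theorem bender_uniqueness [Finite G] (hG : Cfsg.IsMinSimpleOddOrder G) {H L : Subgroup G}
    (hH : IsCoatom H) (hL : IsCoatom L) (hZ : ∀ q : ℕ, q.Prime → zq q H ≤ L)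
    (h2 : ∃ r₁ r₂ : ℕ, r₁.Prime ∧ r₂.Prime ∧ r₁ ≠ r₂ ∧ opIn r₁ H ≠ ⊥ ∧ opIn r₂ H ≠ ⊥)
    (h0 : ∀ q : ℕ, q.Prime → opIn q H = ⊥ → opIn q L = ⊥) : L = H := by
  obtain ⟨hLH, hne⟩ := bender_step hG hH hL hZ h2 h0
  obtain ⟨r₁, r₂, hr₁, hr₂, h12, hH₁, hH₂⟩ := h2
  obtain ⟨hHL, -⟩ := bender_step hG hL hH (fun q hq => (zq_le_opIn q L).trans (hLH q hq))
    ⟨r₁, r₂, hr₁, hr₂, h12, hne r₁ hr₁ hH₁, hne r₂ hr₂ hH₂⟩
    (fun q hq h => by
      by_contra hcon
      exact hne q hq hcon h)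
  by_contra hcon
  have hs := hG.2.1
  have hHsol := solvable_of_ne_top hG hH.1
  have hLsol := solvable_of_ne_top hG hL.1
  obtain ⟨p, hp, hpH, -⟩ := Cfsg.Agent.S1312.result hG.2.2.1 H L hH hL (Ne.symm hcon)
    (by
      rw [fstar_map_eq_fitIn hHsol, fitIn_eq_iSup_opIn]
      exact iSup_le fun r => hHL r r.2)
    (by
      rw [fstar_map_eq_fitIn hLsol, fitIn_eq_iSup_opIn]
      exact iSup_le fun r => hLH r r.2)
  have hpF : IsPGroup p (fitIn H) := by
    rw [← fstar_map_eq_fitIn hHsol]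
    exact hpH.map _
  have huniq : ∀ r : ℕ, r.Prime → opIn r H ≠ ⊥ → r = p := by
    intro r hr hrH
    by_contra hrp
    have := Fact.mk hr
    apply hrH
    apply eq_bot_of_isPGroup_of_coprime (hpF.to_le (opIn_le_fitIn r H))
    obtain ⟨n, hn⟩ := IsPGroup.iff_card.mp (opIn_isPGroup r H)
    rw [hn]
    exact Nat.Coprime.pow_left n ((Nat.coprime_primes hr hp).mpr hrp)
  exact h12 ((huniq r₁ hr₁ hH₁).trans (huniq r₂ hr₂ hH₂).symm)

end Cfsg.Agent.Lib.Helper30
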